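import Cfsg.Agent.H217.Odm.Eng
import Cfsg.Agent.H257.El.Sp.RuMod
import Cfsg.Agent.OddHalf.Table.OutRu
import Cfsg.Agent.NotCT.Orders
import Cfsg.Agent.RuLat.Main

/-!
# TEAM ODDM (S4785): the Rudvalis group (helper315)

`29` and `13`: elements of both orders are products of two involutions, and there is none of order `377`.
-/

set_option autoImplicit false
set_option maxRecDepth 100000
set_option exponentiation.threshold 5000

namespace Cfsg.Agent.H315.OdmRowRu

open Cfsg Cfsg.Agent.OrdDiv Cfsg.Agent.H453.OddM Cfsg.Agent.SporadicB Cfsg.Agent.OddHalf.Table.OutRu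

universe u

/-- a real element which moves a point with period `p` has a real power of order `p` -/
theorem realP_of_period {G : Type*} [Group G] [Finite G] {Ω : Type*} (φ : G →* Equiv.Perm Ω) {p : ℕ} (hp : p.Prime)
    {z : G} (hz : IsReal z) {i : Ω} (h1 : (φ z ^ p) i = i) (h2 : φ z i ≠ i) : RealP G p := by
  have h0 : orderOf z ≠ 0 := (orderOf_pos z).ne'
  have hd : p ∣ orderOf z := by
    by_contra hc
    have hcop : Nat.Coprime p (orderOf z) := (Nat.Prime.coprime_iff_not_dvd hp).2 hc
    have h3 : φ z ^ orderOf z = 1 := by rw [← map_pow, pow_orderOf_eq_one, map_one]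
    have h4 : MulAction.period (φ z) i ∣ p := MulAction.pow_smul_eq_iff_period_dvd.1 h1
    have h5 : MulAction.period (φ z) i ∣ orderOf z :=
      MulAction.pow_smul_eq_iff_period_dvd.1 (by rw [h3]; rfl)
    have h6 : MulAction.period (φ z) i = 1 := Nat.eq_one_of_dvd_coprimes hcop h4 h5
    have h7 : φ z ^ 1 • i = i := MulAction.pow_smul_eq_iff_period_dvd.2 (by rw [h6])
    rw [pow_one] at h7
    exact h2 h7
  refine ⟨z ^ (orderOf z / p), ?_, hz.pow _⟩
  rw [orderOf_pow' _ (Nat.div_pos (Nat.le_of_dvd (Nat.pos_of_ne_zero h0) hd) hp.pos).ne',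
    Nat.gcd_eq_right (Nat.div_dvd_of_dvd hd), Nat.div_div_self hd h0]

theorem realP_congr {G H : Type*} [Group G] [Group H] (e : G ≃* H) {p : ℕ} (h : RealP G p) : RealP H p := by
  obtain ⟨x, hx, hr⟩ := h
  exact ⟨e x, by rw [e.orderOf_eq, hx], hr.map e.toMonoidHom⟩

theorem pow_apply (u : List ℕ) (n : ℕ) (i : Fin 4060) :
    ((((RuOrder.H.subtype (W u)) ^ n : Equiv.Perm (Fin 4060)) i : Fin 4060) : ℕ) = ev (rep n u) i := by
  rw [← map_pow, ← W_rep, ← W_apply]
  rfl

theorem ru_of (p : ℕ) (hp : p.Prime) (u : List ℕ) (i : Fin 4060) [Finite RuOrder.H]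
    (h0 : eqw (u ++ u) [] = true) (h1 : Nat.beq (ev (rep p (4 :: u)) i.val) i.val = true)
    (h2 : Nat.beq (ev (rep 1 (4 :: u)) i.val) i.val = false) : RealP RuOrder.H p := by
  have ht : W u * W u = 1 := by
    rw [← W_append, eqw_sound h0, W_nil]
  have hs : W [4] * W [4] = 1 := by rw [W_y, y_sq]
  have hu : W [4] * W u = W (4 :: u) := by rw [← W_append]; rfl
  have hreal : IsReal (W (4 :: u)) := by
    rw [← hu]
    exact IsReal.of_mul (by rw [sq, hs]) (by rw [sq, ht])
  refine realP_of_period RuOrder.H.subtype hp hreal (i := i) ?_ ?_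
  · apply Fin.ext
    rw [pow_apply]
    exact Nat.eq_of_beq_eq_true h1
  · intro h
    have h3 := pow_apply (4 :: u) 1 i
    rw [pow_one, h] at h3
    rw [← h3, Nat.beq_refl] at h2
    exact Bool.noConfusion h2

theorem finH : Finite RuOrder.H := Nat.finite_of_card_ne_zero (by rw [RuOrder.card_H]; norm_num)

theorem real13 : RealP RuOrder.H 13 :=
  haveI := finH
  ru_of 13 (by norm_num) [0, 4, 2, 0, 4, 1, 3, 4, 1] ⟨0, by norm_num⟩ (by decide +kernel) (by decide +kernel)
    (by decide +kernel)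

theorem real29 : RealP RuOrder.H 29 :=
  haveI := finH
  ru_of 29 (by norm_num) [1, 1, 4, 0, 0] ⟨0, by norm_num⟩ (by decide +kernel) (by decide +kernel)
    (by decide +kernel)

theorem row (tab : OrderTable.{u}) (known : H257.El.Known.{u}) {T : Type u} [Group T] (h : Spor.IsoRu T) :
    Row T := by
  have hc := NotCT.Orders.ru h
  have : Finite T := Nat.finite_of_card_ne_zero (by rw [hc]; norm_num)
  obtain ⟨e⟩ := h
  have e' : RuOrder.H ≃* T := (e.trans RuLat.Main.equiv).symm
  refine H217.Odm.row_of_empty tab known (l := [(2, 14), (3, 3), (5, 3), (7, 1), (13, 1), (29, 1)]) (r := 29)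
    (ss := [13]) hc (by norm_num) (realP_congr e' real29) ?_ (by decide +kernel)
  intro s hs
  rw [List.mem_singleton] at hs
  subst hs
  exact ⟨by norm_num, realP_congr e' real13, H257.El.noOrd_congr e H257.El.RuMod.no377⟩

end Cfsg.Agent.H315.OdmRowRu
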