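import Cfsg.Agent.H981.Inv.ThData

/-!
# Products of two elements of order 7, resp. 13, of the Thompson group of order 19: kernel checks (helper315, for S2454)
-/

set_option autoImplicit false

namespace Cfsg.Agent.H315.PwThData

open Cfsg.Agent.Th Cfsg.Agent.Th.MatEngine Cfsg.Agent.Th.Words248 Cfsg.Agent.Th.Gen248
  Cfsg.Agent.ThType.SevenBase Cfsg.Agent.H478.RadThMat Cfsg.Agent.H478.RadThA Cfsg.Agent.H478.RadThB
  Cfsg.Agent.H981.InvThData

set_option maxRecDepth 100000
set_option maxHeartbeats 400000

/-- a conjugate of `b` -/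
def wt : Wd := .mul (.mul (.inv (.mul (.g .u) (.g .b))) (.g .b)) (.mul (.g .u) (.g .b))
/-- a conjugate of `b` -/
def wv : Wd := .mul (.mul (.mul (.g .s) (.g .u)) (.g .b)) (.inv (.mul (.g .s) (.g .u)))

theorem c7t : Nat.beq (powB (evN false (.mul wq wt)) [false, false, true, true]) idm = true := by decide +kernel
theorem e7t : (evG (.mul wq wt)) ^ 19 = 1 := pow_eq_one (rep_word _) 19 [false, false, true, true] rfl c7t

theorem c13t : Nat.beq (powB (evN false (.mul (.mul wq (.g .d)) wv)) [false, false, true, true]) idm = true := by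
  decide +kernel
theorem e13t : (evG (.mul (.mul wq (.g .d)) wv)) ^ 19 = 1 :=
  pow_eq_one (rep_word _) 19 [false, false, true, true] rfl c13t

end Cfsg.Agent.H315.PwThData
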